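import Cfsg.Agent.H4.Classify
import Cfsg.Agent.H4.Singular

/-!
Characteristic two: quadratic forms with prescribed polar form, orthonormal bases of symmetric forms.
-/

set_option autoImplicit false

namespace Cfsg.Agent.H4

open QuadraticMap Module

variable {F V : Type*} [Field F] [AddCommGroup V] [Module F V]

/-- In characteristic two a quadratic form with given polar form and values on a basis exists uniquely. -/
theorem existsUnique_qf_of_polar {ι : Type*} [Fintype ι] (h2 : (2 : F) = 0) (b : Basis ι F V)
    (B : LinearMap.BilinForm F V) (hB : B.IsAlt) (c : ι → F) :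
    ∃! Q : QuadraticForm F V, polarBilin Q = B ∧ ∀ i, Q (b i) = c i := by
  classical
  let σ := Fintype.equivFin ι
  let M : ι → ι → F := fun i j => if i = j then c i else if σ i < σ j then B (b i) (b j) else 0
  let C : LinearMap.BilinForm F V := b.constr F fun i => b.constr F fun j => M i j
  have hC : ∀ i j, C (b i) (b j) = M i j := fun i j => by simp [C, Basis.constr_basis]
  refine ⟨LinearMap.BilinMap.toQuadraticMap C, ⟨?_, fun i => ?_⟩, fun Q hQ => ?_⟩
  · refine LinearMap.ext_basis b b fun i j => ?_
    rw [polarBilin_apply_apply, LinearMap.BilinMap.polar_toQuadraticMap, hC, hC]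
    rcases eq_or_ne i j with rfl | hij
    · simp [M, hB (b i), ← two_mul, h2]
    · rcases lt_or_gt_of_ne (fun h => hij (σ.injective h) : σ i ≠ σ j) with h | h
      · simp [M, hij, hij.symm, h, h.not_gt]
      · simp [M, hij, hij.symm, h, h.not_gt]
        rw [← hB.neg_eq (b i) (b j)]
        linear_combination -B (b i) (b j) * h2
  · simp [hC, M]
  · refine qf_ext_basis b (fun i => ?_) (fun i j => ?_)
    · rw [hQ.2]; simp [hC, M]
    · rw [← polarBilin_apply_apply, hQ.1, LinearMap.BilinMap.polar_toQuadraticMap, hC, hC]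
      rcases eq_or_ne i j with rfl | hij
      · simp [M, hB (b i), ← two_mul, h2]
      · rcases lt_or_gt_of_ne (fun h => hij (σ.injective h) : σ i ≠ σ j) with h | h
        · simp [M, hij, hij.symm, h, h.not_gt]
        · simp [M, hij, hij.symm, h, h.not_gt]
          rw [← hB.neg_eq (b j) (b i)]
          linear_combination (-(B (b j) (b i))) * h2

variable [Finite F] [FiniteDimensional F V]

/-- Induction step: an orthonormal family in a non-degenerate non-alternating subspace. -/
theorem exists_orthonormal_family (h2 : (2 : F) = 0) {B : LinearMap.BilinForm F V}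
    (hS : B.IsSymm) :
    ∀ (n : ℕ) (S : Submodule F V), finrank F S = n →
      (∀ x ∈ S, (∀ y ∈ S, B x y = 0) → x = 0) → (n ≠ 0 → ∃ v ∈ S, B v v ≠ 0) →
      ∃ u : Fin n → V, (∀ i, u i ∈ S) ∧ ∀ i j, B (u i) (u j) = if i = j then 1 else 0 := by
  intro n
  induction n with
  | zero => exact fun S _ _ _ => ⟨Fin.elim0, fun i => i.elim0, fun i => i.elim0⟩
  | succ n ih =>
    intro S hr hnd hna
    obtain ⟨w, hwS, hw⟩ := hna (Nat.succ_ne_zero n)
    obtain ⟨t, ht⟩ := exists_sq_eq h2 (B w w)⁻¹
    -- complement of a vector of norm one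
    have hcomp : ∀ v ∈ S, B v v = 1 →
        finrank F (S ⊓ LinearMap.ker (B v) : Submodule F V) = n ∧
          ∀ x ∈ S ⊓ LinearMap.ker (B v), (∀ y ∈ S ⊓ LinearMap.ker (B v), B x y = 0) → x = 0 := by
      intro v hvS hv
      constructor
      · have hk : S ⊓ LinearMap.ker (B v) =
            (LinearMap.ker ((B v).domRestrict S)).map S.subtype := by
          ext z; simp [LinearMap.domRestrict_apply, and_comm]
        have hsurj : LinearMap.range ((B v).domRestrict S) = ⊤ :=
          LinearMap.range_eq_top.2 fun s => ⟨s • ⟨v, hvS⟩, by simp [hv]⟩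
        have h := LinearMap.finrank_range_add_finrank_ker ((B v).domRestrict S)
        rw [hsurj, finrank_top, Module.finrank_self, hr] at h
        rw [hk, Submodule.finrank_map_subtype_eq]
        omega
      · intro x hx h
        obtain ⟨hxS, hxv⟩ := Submodule.mem_inf.1 hx
        rw [LinearMap.mem_ker] at hxv
        refine hnd x hxS fun y hy => ?_
        have hy' : y - B v y • v ∈ S ⊓ LinearMap.ker (B v) := by
          refine Submodule.mem_inf.2 ⟨S.sub_mem hy (S.smul_mem _ hvS), ?_⟩
          rw [LinearMap.mem_ker]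
          simp [hv]
        have h0 := h _ hy'
        simpa [hS.eq x v, hxv] using h0
    -- choose it with non-alternating complement
    obtain ⟨v, hvS, hv, hnext⟩ : ∃ v ∈ S, B v v = 1 ∧
        (n ≠ 0 → ∃ z ∈ S ⊓ LinearMap.ker (B v), B z z ≠ 0) := by
      have hv₁ : B (t • w) (t • w) = 1 := by
        simp only [map_smul, LinearMap.smul_apply, smul_eq_mul]
        rw [← mul_assoc, ← pow_two, ht, inv_mul_cancel₀ hw]
      by_cases hall : ∃ z ∈ S ⊓ LinearMap.ker (B (t • w)), B z z ≠ 0
      · exact ⟨_, S.smul_mem t hwS, hv₁, fun _ => hall⟩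
      push Not at hall
      rcases eq_or_ne n 0 with hn | hn
      · exact ⟨_, S.smul_mem t hwS, hv₁, fun h => absurd hn h⟩
      obtain ⟨hKr, hKnd⟩ := hcomp _ (S.smul_mem t hwS) hv₁
      set v := t • w
      set K := S ⊓ LinearMap.ker (B v)
      obtain ⟨e, heK, he0⟩ : ∃ e ∈ K, e ≠ 0 := by
        by_contra! h
        have hbot : K = ⊥ := (Submodule.eq_bot_iff _).2 h
        rw [hbot, finrank_bot] at hKr
        exact hn hKr.symm
      obtain ⟨f₀, hf₀, hef₀⟩ : ∃ f ∈ K, B e f ≠ 0 := by
        by_contra! h
        exact he0 (hKnd e heK h)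
      have hf : (B e f₀)⁻¹ • f₀ ∈ K := K.smul_mem _ hf₀
      set f := (B e f₀)⁻¹ • f₀
      have hef : B e f = 1 := by simp [f, inv_mul_cancel₀ hef₀]
      have hve : B v e = 0 := (Submodule.mem_inf.1 heK).2
      have hvf : B v f = 0 := (Submodule.mem_inf.1 hf).2
      have hev : B e v = 0 := by rw [hS.eq e v]; exact hve
      have hfv : B f v = 0 := by rw [hS.eq f v]; exact hvf
      refine ⟨v + e, S.add_mem (S.smul_mem t hwS) (Submodule.mem_inf.1 heK).1, ?_, fun _ =>
        ⟨v + f, Submodule.mem_inf.2 ⟨S.add_mem (S.smul_mem t hwS) (Submodule.mem_inf.1 hf).1, ?_⟩, ?_⟩⟩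
      · simp [hv₁, hve, hev, hall e heK]
      · rw [LinearMap.mem_ker]
        simp [hv₁, hvf, hev, hef]
        linear_combination h2
      · simp [hv₁, hvf, hfv, hall f hf]
    obtain ⟨hKr, hKnd⟩ := hcomp v hvS hv
    obtain ⟨u, hu, horth⟩ := ih _ hKr hKnd hnext
    refine ⟨Fin.cons v u, Fin.cases hvS fun i => (Submodule.mem_inf.1 (hu i)).1, fun i j => ?_⟩
    have hvu : ∀ k, B v (u k) = 0 := fun k => (Submodule.mem_inf.1 (hu k)).2
    cases i using Fin.cases with
    | zero =>
      cases j using Fin.cases with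
      | zero => simp [hv]
      | succ j => simp [hvu, (Fin.succ_ne_zero j).symm]
    | succ i =>
      cases j using Fin.cases with
      | zero => simp [hS.eq (u i) v, hvu, Fin.succ_ne_zero]
      | succ j => simp [horth, Fin.succ_inj]

/-- A non-degenerate non-alternating symmetric form in characteristic two has an orthonormal basis. -/
theorem exists_orthonormal_basis_char_two (h2 : (2 : F) = 0) {B : LinearMap.BilinForm F V}
    (hS : B.IsSymm) (hB : B.Nondegenerate) (hna : ∃ v, B v v ≠ 0) {n : ℕ} (hV : finrank F V = n) :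
    ∃ b : Basis (Fin n) F V, ∀ i j, B (b i) (b j) = if i = j then 1 else 0 := by
  obtain ⟨u, -, hu⟩ := exists_orthonormal_family h2 hS n ⊤ (by rw [finrank_top, hV])
    (fun x _ h => hB.1 x fun y => h y trivial)
    (fun _ => let ⟨v, hv⟩ := hna; ⟨v, trivial, hv⟩)
  have hli : LinearIndependent F u := by
    rw [Fintype.linearIndependent_iff]
    intro g hg i
    have := congrArg (B (u i)) hg
    simpa [map_sum, hu] using this
  refine ⟨Basis.mk hli (hli.span_eq_top_of_card_eq_finrank' (by simp [hV])).ge, fun i j => ?_⟩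
  simp only [Basis.coe_mk]
  exact hu i j

end Cfsg.Agent.H4
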